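-- helper27: package [EL] of the team project JR (S3206).
import Cfsg.Agent.Lib.Helper35.JR.Defs

set_option autoImplicit false

namespace Cfsg.Agent.Lib.Helper27.JR

open Cfsg.Agent.Lib.Helper35.JR

universe u

section
variable {E : Type u} [Group E]

/-- Restriction of an automorphism to a subgroup it stabilizes. -/
noncomputable def resAut (β : E ≃* E) (N : Subgroup E) (h : N.map (β : E →* E) = N) : ↥N ≃* ↥N :=
  (β.subgroupMap N).trans (MulEquiv.subgroupCongr h)

theorem resAut_apply (β : E ≃* E) (N : Subgroup E) (h : N.map (β : E →* E) = N) (x : ↥N) :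
    ((resAut β N h x : ↥N) : E) = β (x : E) := rfl

theorem resAut_pow_apply (β : E ≃* E) (N : Subgroup E) (h : N.map (β : E →* E) = N) (n : ℕ) :
    ∀ x : ↥N, ((((resAut β N h) ^ n) x : ↥N) : E) = (β ^ n) (x : E) := by
  induction n with
  | zero => intro x; rfl
  | succ n ih =>
    intro x
    rw [pow_succ, pow_succ, MulAut.mul_apply, MulAut.mul_apply, ih, resAut_apply]

/-- Conjugate Sylow subgroups, elementwise. -/
theorem sylow_conj [Finite E] (T0 T : Sylow 2 E) :
    ∃ g : E, ∀ x, x ∈ (T : Subgroup E) ↔ g⁻¹ * x * g ∈ (T0 : Subgroup E) := by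
  obtain ⟨g, hg⟩ := MulAction.exists_smul_eq E T0 T
  refine ⟨g, fun x => ?_⟩
  rw [← hg, Sylow.smul_def, Sylow.pointwise_smul_def, Subgroup.mem_pointwise_smul_iff_inv_smul_mem]
  simp [MulAut.smul_def]

variable [Finite E]

/-- A Sylow 2-subgroup of `E` which is the image of a Sylow 2-subgroup of `N`. -/
theorem exists_sylow_eq_map
    (hab : ∀ T : Sylow 2 E, ∀ x ∈ (T : Subgroup E), ∀ y ∈ (T : Subgroup E), x * y = y * x)
    (N : Subgroup E) [N.Normal] (hN : NLoc ↥N) (hC : Subgroup.centralizer (N : Set E) = ⊥) :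
    ∃ (T0 : Sylow 2 E) (P0 : Sylow 2 ↥N),
      (T0 : Subgroup E) = (P0 : Subgroup ↥N).map N.subtype := by
  obtain ⟨P0⟩ : Nonempty (Sylow 2 ↥N) := inferInstance
  have hP' : IsPGroup 2 ↥((P0 : Subgroup ↥N).map N.subtype) := P0.isPGroup'.map N.subtype
  obtain ⟨T0, hT0⟩ := hP'.exists_le_sylow
  refine ⟨T0, P0, le_antisymm ?_ hT0⟩
  intro x hx
  obtain ⟨k, hk⟩ := T0.isPGroup' ⟨x, hx⟩
  have hk' : x ^ (2 ^ k) = 1 := by
    have := congrArg Subtype.val hk
    simpa using this
  have hα : (MulAut.conjNormal x : MulAut ↥N) ^ (2 ^ k) = 1 := by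
    rw [← map_pow, hk', map_one]
  have hfix : ∀ y ∈ (P0 : Subgroup ↥N), (MulAut.conjNormal x : MulAut ↥N) y = y := by
    intro y hy
    apply Subtype.ext
    rw [MulAut.conjNormal_apply]
    have hyT : (y : E) ∈ (T0 : Subgroup E) := hT0 ⟨y, hy, rfl⟩
    rw [hab T0 x hx y hyT]
    group
  obtain ⟨v, hv, hconj⟩ := hN.2.2.2 (MulAut.conjNormal x : MulAut ↥N) k hα P0 hfix
  have hcent : (v : E)⁻¹ * x ∈ Subgroup.centralizer (N : Set E) := by
    rw [Subgroup.mem_centralizer_iff]
    intro n hn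
    have h1 := congrArg Subtype.val (hconj ⟨n, hn⟩)
    rw [MulAut.conjNormal_apply] at h1
    simp only [Subgroup.coe_mul, Subgroup.coe_inv] at h1
    have h2 : x * n = (v : E) * n * (v : E)⁻¹ * x := by
      rw [← h1]
      group
    calc n * ((v : E)⁻¹ * x) = (v : E)⁻¹ * ((v : E) * n * (v : E)⁻¹ * x) := by group
      _ = (v : E)⁻¹ * (x * n) := by rw [h2]
      _ = (v : E)⁻¹ * x * n := by group
  rw [hC, Subgroup.mem_bot] at hcent
  have hxv : x = (v : E) := by
    calc x = (v : E) * ((v : E)⁻¹ * x) := by group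
      _ = (v : E) := by rw [hcent, mul_one]
  rw [hxv]
  exact ⟨v, hv, rfl⟩

/-- The automorphism statement for a Sylow 2-subgroup that is the image of one of `N`. -/
theorem aut_core (N : Subgroup E) [N.Normal] (hN : NLoc ↥N)
    (hC : Subgroup.centralizer (N : Set E) = ⊥) (T0 : Sylow 2 E) (P0 : Sylow 2 ↥N)
    (hTP : (T0 : Subgroup E) = (P0 : Subgroup ↥N).map N.subtype)
    (β : E ≃* E) (k : ℕ) (hβ : β ^ (2 ^ k) = 1)
    (hfix : ∀ x ∈ (T0 : Subgroup E), β x = x) :
    ∃ v ∈ (T0 : Subgroup E), ∀ x : E, β x = v * x * v⁻¹ := by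
  haveI := hN.1
  have hP0T : ∀ y ∈ (P0 : Subgroup ↥N), (y : E) ∈ (T0 : Subgroup E) := by
    intro y hy
    rw [hTP]
    exact ⟨y, hy, rfl⟩
  -- β stabilizes N
  have hmapN : N.map (β : E →* E) = N := by
    have hMn : (N.map (β : E →* E)).Normal :=
      Subgroup.Normal.map inferInstance (β : E →* E) β.surjective
    have hKn : ((N.map (β : E →* E) ⊓ N).subgroupOf N).Normal := by
      haveI : (N.map (β : E →* E) ⊓ N).Normal := Subgroup.normal_inf_normal _ _
      exact Subgroup.Normal.subgroupOf inferInstance N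
    have hne : (N.map (β : E →* E) ⊓ N).subgroupOf N ≠ ⊥ := by
      intro hbot
      have hP0bot : (P0 : Subgroup ↥N) = ⊥ := by
        rw [Subgroup.eq_bot_iff_forall]
        intro y hy
        have hmem : y ∈ (N.map (β : E →* E) ⊓ N).subgroupOf N := by
          rw [Subgroup.mem_subgroupOf]
          refine ⟨⟨(y : E), y.2, ?_⟩, y.2⟩
          exact hfix _ (hP0T y hy)
        rw [hbot, Subgroup.mem_bot] at hmem
        exact hmem
      have h4 := (hN.2.2.1 P0).1
      rw [hP0bot, Subgroup.card_bot] at h4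
      omega
    have htop := (hKn.eq_bot_or_eq_top).resolve_left hne
    have hle : N ≤ N.map (β : E →* E) := by
      intro n hn
      have : (⟨n, hn⟩ : ↥N) ∈ (N.map (β : E →* E) ⊓ N).subgroupOf N := by
        rw [htop]
        exact Subgroup.mem_top _
      rw [Subgroup.mem_subgroupOf] at this
      exact this.1
    have hcard : Nat.card ↥(N.map (β : E →* E)) = Nat.card ↥N :=
      (Nat.card_congr (β.subgroupMap N).toEquiv).symm
    exact (Subgroup.eq_of_le_of_card_ge hle (le_of_eq hcard)).symm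
  have hα : (resAut β N hmapN) ^ (2 ^ k) = 1 := by
    apply MulEquiv.ext
    intro x
    apply Subtype.ext
    rw [resAut_pow_apply, hβ]
    rfl
  have hfixα : ∀ y ∈ (P0 : Subgroup ↥N), resAut β N hmapN y = y := by
    intro y hy
    apply Subtype.ext
    rw [resAut_apply]
    exact hfix _ (hP0T y hy)
  obtain ⟨v, hv, hconj⟩ := hN.2.2.2 (resAut β N hmapN) k hα P0 hfixα
  have hβN : ∀ n ∈ N, β n = (v : E) * n * (v : E)⁻¹ := by
    intro n hn
    have h1 := congrArg Subtype.val (hconj ⟨n, hn⟩)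
    rw [resAut_apply] at h1
    simpa using h1
  refine ⟨(v : E), hP0T v hv, fun e => ?_⟩
  have hcent : ((v : E) * e)⁻¹ * β e * (v : E) ∈ Subgroup.centralizer (N : Set E) := by
    rw [Subgroup.mem_centralizer_iff]
    intro n hn
    have hen : e * n * e⁻¹ ∈ N := ‹N.Normal›.conj_mem n hn e
    have h1 := hβN _ hen
    rw [map_mul, map_mul, map_inv, hβN n hn] at h1
    have h2 : β e * (v : E) * n = (v : E) * e * n * e⁻¹ * (v : E)⁻¹ * β e * (v : E) := by
      have : (v : E) * e * n * e⁻¹ * (v : E)⁻¹ = (v : E) * (e * n * e⁻¹) * (v : E)⁻¹ := by group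
      rw [this, ← h1]
      group
    calc n * (((v : E) * e)⁻¹ * β e * (v : E))
        = ((v : E) * e)⁻¹ * ((v : E) * e * n * e⁻¹ * (v : E)⁻¹ * β e * (v : E)) := by group
      _ = ((v : E) * e)⁻¹ * (β e * (v : E) * n) := by rw [h2]
      _ = ((v : E) * e)⁻¹ * β e * (v : E) * n := by group
  rw [hC, Subgroup.mem_bot] at hcent
  calc β e = ((v : E) * e) * (((v : E) * e)⁻¹ * β e * (v : E)) * (v : E)⁻¹ := by group
    _ = (v : E) * e * (v : E)⁻¹ := by rw [hcent, mul_one]

/-- [EL] from a normal subgroup `N` with `NLoc N` and `C_E(N) = 1` to `ELoc E`. -/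
theorem pkgEL : PkgEL.{u} := by
  intro E _ _ hab N _ hN hC
  obtain ⟨T0, P0, hTP⟩ := exists_sylow_eq_map hab N hN hC
  have hP0 := hN.2.2.1 P0
  have hT0card : Nat.card ↥(T0 : Subgroup E) = 4 := by
    rw [hTP, ← hP0.1]
    exact (Nat.card_congr (Subgroup.equivMapOfInjective _ N.subtype N.subtype_injective).toEquiv).symm
  have hT0exp : ∀ x ∈ (T0 : Subgroup E), x ^ 2 = 1 := by
    intro x hx
    rw [hTP] at hx
    obtain ⟨y, hy, rfl⟩ := hx
    have := hP0.2 y hy
    have h2 := congrArg Subtype.val this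
    simpa using h2
  refine ⟨?_, ?_, ?_⟩
  · -- generation by squares
    rw [eq_top_iff]
    intro e _
    have hNle : ∀ n ∈ N, n ∈ Subgroup.closure {y : E | ∃ x : E, x ^ 2 = y} := by
      intro n hn
      have h1 : (⟨n, hn⟩ : ↥N) ∈ Subgroup.closure {y : ↥N | ∃ x : ↥N, x ^ 2 = y} := by
        rw [hN.2.1]
        exact Subgroup.mem_top _
      have h2 : n ∈ (Subgroup.closure {y : ↥N | ∃ x : ↥N, x ^ 2 = y}).map N.subtype :=
        ⟨⟨n, hn⟩, h1, rfl⟩
      rw [MonoidHom.map_closure] at h2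
      refine (Subgroup.closure_mono ?_) h2
      rintro _ ⟨y, ⟨x, rfl⟩, rfl⟩
      exact ⟨(x : E), by simp⟩
    have hT0N : (T0 : Subgroup E) ≤ N := by
      rw [hTP]
      rintro _ ⟨y, _, rfl⟩
      exact y.2
    have hodd : ¬ 2 ∣ N.index := by
      intro h2
      exact T0.not_dvd_index (dvd_trans h2 (Subgroup.index_dvd_of_le hT0N))
    obtain ⟨m, hm⟩ : ∃ m, N.index = 2 * m + 1 := by
      have := Nat.odd_iff.mpr (by omega : N.index % 2 = 1)
      obtain ⟨m, hm⟩ := this
      exact ⟨m, hm⟩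
    have hmem : e ^ N.index ∈ N := Subgroup.pow_index_mem N e
    have hsq : e ^ (2 * m + 2) ∈ Subgroup.closure {y : E | ∃ x : E, x ^ 2 = y} :=
      Subgroup.subset_closure ⟨e ^ (m + 1), by rw [← pow_mul]; congr 1; ring⟩
    have he : e = e ^ (2 * m + 2) * (e ^ N.index)⁻¹ := by
      rw [hm, ← zpow_natCast, ← zpow_natCast, ← zpow_neg, ← zpow_add]
      have : ((2 * m + 2 : ℕ) : ℤ) + -((2 * m + 1 : ℕ) : ℤ) = 1 := by push_cast; ring
      rw [this, zpow_one]
    rw [he]
    exact Subgroup.mul_mem _ hsq (Subgroup.inv_mem _ (hNle _ hmem))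
  · intro T
    obtain ⟨g, hg⟩ := sylow_conj T0 T
    refine ⟨?_, ?_⟩
    · rw [Sylow.card_eq_multiplicity, ← hT0card, Sylow.card_eq_multiplicity]
    · intro x hx
      have h1 := hT0exp _ ((hg x).mp hx)
      have h2 : x = g * (g⁻¹ * x * g) * g⁻¹ := by group
      rw [h2, conj_pow, h1]
      group
  · intro β k hβ T hfix
    obtain ⟨g, hg⟩ := sylow_conj T0 T
    set a : MulAut E := (MulAut.conj g)⁻¹ with ha
    have hβ' : (a * β * a⁻¹ : MulAut E) ^ (2 ^ k) = 1 := by
      rw [conj_pow]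
      have : (β : MulAut E) ^ (2 ^ k) = 1 := hβ
      rw [this]
      group
    have happ : ∀ e : E, (a * β * a⁻¹ : MulAut E) e = g⁻¹ * β (g * e * g⁻¹) * g := by
      intro e
      simp [ha, MulAut.mul_apply]
    have hfix' : ∀ y ∈ (T0 : Subgroup E), (a * β * a⁻¹ : MulAut E) y = y := by
      intro y hy
      rw [happ]
      have hyT : g * y * g⁻¹ ∈ (T : Subgroup E) := by
        rw [hg]
        have : g⁻¹ * (g * y * g⁻¹) * g = y := by group
        rw [this]
        exact hy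
      rw [hfix _ hyT]
      group
    obtain ⟨v0, hv0, hconj⟩ := aut_core N hN hC T0 P0 hTP (a * β * a⁻¹ : MulAut E) k hβ' hfix'
    refine ⟨g * v0 * g⁻¹, ?_, fun x => ?_⟩
    · rw [hg]
      have : g⁻¹ * (g * v0 * g⁻¹) * g = v0 := by group
      rw [this]
      exact hv0
    · have h1 := hconj (g⁻¹ * x * g)
      rw [happ] at h1
      have h2 : g * (g⁻¹ * x * g) * g⁻¹ = x := by group
      rw [h2] at h1
      calc β x = g * (g⁻¹ * β x * g) * g⁻¹ := by group
        _ = g * (v0 * (g⁻¹ * x * g) * v0⁻¹) * g⁻¹ := by rw [h1]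
        _ = g * v0 * g⁻¹ * x * (g * v0 * g⁻¹)⁻¹ := by group

end

end Cfsg.Agent.Lib.Helper27.JR
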